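import Cfsg.Agent.Lib.Helper62.CHM.Defs

set_option autoImplicit false

namespace Cfsg.Agent.Lib.Helper62.CHM

open scoped Classical

variable {G : Type*} [Group G] [Finite G]

theorem C1_fiber (k : ℕ) : Nat.card {x : G // cs x = k} =
    k * Nat.card {C : ConjClasses G // Nat.card C.carrier = k} := by
  have e : {x : G // cs x = k} ≃
      Σ C : {C : ConjClasses G // Nat.card C.carrier = k}, C.1.carrier :=
    { toFun := fun x => ⟨⟨ConjClasses.mk x.1, x.2⟩, ⟨x.1, ConjClasses.mem_carrier_mk⟩⟩
      invFun := fun y => ⟨y.2.1, by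
        have h := ConjClasses.mem_carrier_iff_mk_eq.1 y.2.2
        show Nat.card (ConjClasses.mk y.2.1).carrier = k
        rw [h]
        exact y.1.2⟩
      left_inv := fun x => rfl
      right_inv := by
        rintro ⟨⟨C, hC⟩, ⟨x, hx⟩⟩
        have h := ConjClasses.mem_carrier_iff_mk_eq.1 hx
        subst h
        rfl }
  have := Fintype.ofFinite {C : ConjClasses G // Nat.card C.carrier = k}
  rw [Nat.card_congr e, Nat.card_sigma, Finset.sum_congr rfl (fun C _ => C.2),
    Finset.sum_const, Finset.card_univ, Nat.card_eq_fintype_card, smul_eq_mul, mul_comm]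

theorem C1_le (x : G) : cs x ≤ Nat.card G :=
  Nat.card_le_card_of_injective _ Subtype.val_injective

/-- [C1] -/
theorem card_filter (φ : ℕ → Prop) (N : ℕ) (hN : Nat.card G ≤ N) :
    Nat.card {x : G // φ (cs x)} = ∑ k ∈ (Finset.range (N + 1)).filter φ,
      k * Nat.card {C : ConjClasses G // Nat.card C.carrier = k} := by
  have e : {x : G // φ (cs x)} ≃
      Σ k : ((Finset.range (N + 1)).filter φ : Finset ℕ), {x : G // cs x = k.1} :=
    { toFun := fun x => ⟨⟨cs x.1, Finset.mem_filter.2
        ⟨Finset.mem_range.2 (Nat.lt_succ_of_le ((C1_le x.1).trans hN)), x.2⟩⟩, ⟨x.1, rfl⟩⟩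
      invFun := fun y => ⟨y.2.1, by
        rw [y.2.2]
        exact (Finset.mem_filter.1 y.1.2).2⟩
      left_inv := fun x => rfl
      right_inv := by
        rintro ⟨⟨k, hk⟩, ⟨x, hx⟩⟩
        have hx' : cs x = k := hx
        subst hx'
        rfl }
  rw [Nat.card_congr e, Nat.card_sigma,
    Finset.sum_coe_sort _ (fun k => Nat.card {x : G // cs x = k})]
  exact Finset.sum_congr rfl (fun k _ => C1_fiber k)

end Cfsg.Agent.Lib.Helper62.CHM
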