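import Cfsg.Agent.Lib.Helper62.CHM.Defs

set_option autoImplicit false

/-! Farm CHM (helper62), piece C3 (helper4). -/

namespace Cfsg.Agent.Lib.Helper62.CHM

open scoped Classical

variable {G : Type*} [Group G] [Finite G]

/-- [C3] orbit-stabiliser -/
theorem cs_eq_index (x : G) : cs x = (Subgroup.centralizer {x}).index := by
  unfold cs
  rw [← ConjAct.orbit_eq_carrier_conjClasses, Nat.card_coe_set_eq, ← MulAction.index_stabilizer,
    Subgroup.centralizer_eq_comap_stabilizer]
  exact (Subgroup.index_comap_of_surjective _ (ConjAct.toConjAct (G := G)).surjective).symm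

end Cfsg.Agent.Lib.Helper62.CHM
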