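import Cfsg.Agent.Lib.Helper62.CHM.Defs
import Cfsg.Agent.Lib.Helper62.CHM.C3

set_option autoImplicit false

namespace Cfsg.Agent.Lib.Helper62.CHM

open scoped Classical

variable {G : Type*} [Group G] [Finite G]

/-- [C4] -/
theorem mem_A_iff (p : ℕ) [Fact p.Prime] (x : G) :
    x ∈ A G p ↔ ∃ P : Sylow p G, (P : Subgroup G) ≤ Subgroup.centralizer {x} := by
  have hmem : x ∈ A G p ↔ ¬ p ∣ (Subgroup.centralizer {x}).index := by
    rw [← cs_eq_index]
    rfl
  rw [hmem]
  constructor
  · intro h
    obtain ⟨S⟩ : Nonempty (Sylow p (Subgroup.centralizer ({x} : Set G))) := inferInstance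
    have hcard : Nat.card ((S : Subgroup (Subgroup.centralizer ({x} : Set G))).map
        (Subgroup.centralizer ({x} : Set G)).subtype) = p ^ (Nat.card G).factorization p := by
      rw [Subgroup.card_map_of_injective (Subgroup.subtype_injective _), S.card_eq_multiplicity,
        ← Subgroup.card_mul_index (Subgroup.centralizer ({x} : Set G)),
        Nat.factorization_mul Nat.card_pos.ne' Subgroup.index_ne_zero_of_finite,
        Finsupp.add_apply, Nat.factorization_eq_zero_of_not_dvd h, add_zero]
    refine ⟨Sylow.ofCard _ hcard, ?_⟩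
    rw [Sylow.coe_ofCard]
    exact Subgroup.map_subtype_le _
  · rintro ⟨P, hP⟩ hdvd
    exact P.not_dvd_index (hdvd.trans (Subgroup.index_dvd_of_le hP))

end Cfsg.Agent.Lib.Helper62.CHM
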