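import Cfsg.Agent.Lib.Helper62.CHM.Defs

set_option autoImplicit false

/-! Farm CHM piece C5. -/

namespace Cfsg.Agent.Lib.Helper62.CHM

open scoped Classical

variable {G : Type*} [Group G] [Finite G]

theorem C5_cs_eq_one_iff (x : G) : cs x = 1 ↔ x ∈ Subgroup.center G := by
  unfold cs
  constructor
  · intro h
    obtain ⟨hs, -⟩ := Nat.card_eq_one_iff_unique.mp h
    rw [Subgroup.mem_center_iff]
    intro g
    have h1 : g * x * g⁻¹ ∈ (ConjClasses.mk x).carrier := by
      rw [ConjClasses.mem_carrier_iff_mk_eq, ConjClasses.mk_eq_mk_iff_isConj]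
      exact (isConj_iff.mpr ⟨g, rfl⟩).symm
    have h2 : x ∈ (ConjClasses.mk x).carrier := ConjClasses.mem_carrier_mk
    have h3 : (⟨g * x * g⁻¹, h1⟩ : (ConjClasses.mk x).carrier) = ⟨x, h2⟩ := Subsingleton.elim _ _
    have h4 : g * x * g⁻¹ = x := congrArg Subtype.val h3
    calc g * x = g * x * g⁻¹ * g := by group
      _ = x * g := by rw [h4]
  · intro h
    rw [Subgroup.mem_center_iff] at h
    have : (ConjClasses.mk x).carrier = {x} := by
      ext y
      rw [ConjClasses.mem_carrier_iff_mk_eq, ConjClasses.mk_eq_mk_iff_isConj, isConj_iff,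
        Set.mem_singleton_iff]
      constructor
      · rintro ⟨c, hc⟩
        have h5 : c * y = x * c := by rw [← hc]; group
        have h6 : c * y = c * x := by rw [h5, h c]
        exact mul_left_cancel h6
      · rintro rfl
        exact ⟨1, by simp⟩
    rw [this]
    simp

theorem card_center : Nat.card (Subgroup.center G) = Nat.card {x : G // cs x = 1} :=
  Nat.card_congr (Equiv.subtypeEquivRight (fun x => (C5_cs_eq_one_iff x).symm))

end Cfsg.Agent.Lib.Helper62.CHM
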