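import Mathlib

set_option autoImplicit false

/-! Farm CHM (helper62) for S4139 (Cossey-Hawkes-Mann): definitions. -/

namespace Cfsg.Agent.Lib.Helper62.CHM

/-- class size of `x` -/
noncomputable def cs {G : Type*} [Group G] (x : G) : ℕ := Nat.card (ConjClasses.mk x).carrier

/-- the elements whose class size is prime to `p` -/
def A (G : Type*) [Group G] (p : ℕ) : Set G := {x | ¬ p ∣ cs x}

end Cfsg.Agent.Lib.Helper62.CHM
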