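import Cfsg.Agent.Lib.Helper62.CHM.Defs
import Cfsg.Agent.Lib.Helper62.CHM.C4
import Cfsg.Agent.Lib.Helper53.ES3.C2
import Cfsg.Agent.Lib.Helper59.CY.G1

set_option autoImplicit false

namespace Cfsg.Agent.Lib.Helper62.CHM

open scoped Classical

variable {G : Type*} [Group G] [Finite G]

theorem G1_pow {w x z : G} (hz : z ∈ Subgroup.center G) (h : w * x * w⁻¹ = x * z) (i : ℕ) :
    w ^ i * x * (w ^ i)⁻¹ = x * z ^ i := by
  induction i with
  | zero => simp
  | succ i ih =>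
    have hzi : w * z ^ i = z ^ i * w :=
      ((Subgroup.mem_center_iff.1 (Subgroup.pow_mem _ hz i)) w)
    have hzi' : z ^ i * w⁻¹ = w⁻¹ * z ^ i :=
      ((Subgroup.mem_center_iff.1 (Subgroup.pow_mem _ hz i)) w⁻¹).symm
    calc w ^ (i + 1) * x * (w ^ (i + 1))⁻¹ = w * (w ^ i * x * (w ^ i)⁻¹) * w⁻¹ := by
          rw [pow_succ']; group
      _ = w * (x * z ^ i) * w⁻¹ := by rw [ih]
      _ = w * x * (z ^ i * w⁻¹) := by group
      _ = w * x * (w⁻¹ * z ^ i) := by rw [hzi']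
      _ = w * x * w⁻¹ * z ^ i := by group
      _ = x * z ^ (i + 1) := by rw [h, pow_succ', mul_assoc]

/-- a normalising element which moves `x` by a central `p`-element fixes `x`. -/
theorem G1_core (p : ℕ) [Fact p.Prime] (P' : Sylow p G) {w x z : G}
    (hP' : (P' : Subgroup G) ≤ Subgroup.centralizer {x})
    (hw : w ∈ Subgroup.normalizer ((P' : Subgroup G) : Set G)) (hz : z ∈ Subgroup.center G)
    {k : ℕ} (hzk : z ^ p ^ k = 1) (h : w * x * w⁻¹ = x * z) : z = 1 := by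
  have hp := (Fact.out : p.Prime)
  obtain ⟨a, m, hm, ho⟩ := Nat.exists_eq_pow_mul_and_not_dvd (orderOf_pos w).ne' p hp.ne_one
  have h1 : (w ^ m) ^ p ^ a = 1 := by
    rw [← pow_mul, mul_comm, ← ho, pow_orderOf_eq_one]
  obtain ⟨j, -, hj⟩ := (Nat.dvd_prime_pow hp).1 (orderOf_dvd_of_pow_eq_one h1)
  have h2 : w ^ m ∈ (P' : Subgroup G) :=
    Cfsg.Agent.Lib.Helper59.CY.pin P' (Subgroup.pow_mem _ hw m) ⟨j, hj⟩
  have h3 : w ^ m * x = x * w ^ m := Subgroup.mem_centralizer_singleton_iff.1 (hP' h2)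
  have h4 := G1_pow hz h m
  have h5 : z ^ m = 1 := by
    have : x * z ^ m = x * 1 := by
      rw [← h4, h3, mul_one]; group
    exact mul_left_cancel this
  have h6 : orderOf z ∣ Nat.gcd (p ^ k) m :=
    Nat.dvd_gcd (orderOf_dvd_of_pow_eq_one hzk) (orderOf_dvd_of_pow_eq_one h5)
  have h7 : Nat.gcd (p ^ k) m = 1 :=
    Nat.Coprime.pow_left k ((Nat.Prime.coprime_iff_not_dvd hp).2 hm)
  rw [h7, Nat.dvd_one] at h6
  exact orderOf_eq_one_iff.1 h6

theorem key (p : ℕ) [Fact p.Prime] (P : Sylow p G) (Z : Subgroup G) (hZ : Z ≤ Subgroup.center G) (hp : IsPGroup p Z)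
    (x : G) (hx : x ∈ A G p) (h : ∀ g ∈ (P : Subgroup G), x⁻¹ * (g * x * g⁻¹) ∈ Z) :
    x ∈ Subgroup.centralizer (P : Set G) := by
  obtain ⟨P', hP'⟩ := (mem_A_iff p x).1 hx
  rw [Subgroup.mem_centralizer_iff]
  intro g hg
  set z := x⁻¹ * (g * x * g⁻¹) with hz
  have hzZ : z ∈ Z := h g hg
  have hzc : z ∈ Subgroup.center G := hZ hzZ
  have hzcomm : ∀ y : G, y * z = z * y := fun y => Subgroup.mem_center_iff.1 hzc y
  have hgx : g * x * g⁻¹ = x * z := by rw [hz]; group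
  obtain ⟨k, hk⟩ := hp ⟨z, hzZ⟩
  have hzk : z ^ p ^ k = 1 := by
    have := congrArg Subtype.val hk
    simpa using this
  obtain ⟨c, hc, hcn⟩ := Cfsg.Agent.Lib.Helper24.ES3.sylow_conj_in P' (Subgroup.centralizer {x}) hP' g
    (by
      intro u hu
      rw [Subgroup.mem_centralizer_singleton_iff]
      have hux : u * x = x * u := Subgroup.mem_centralizer_singleton_iff.1 (hP' hu)
      have h1 : g * u * g⁻¹ * (x * z) = (x * z) * (g * u * g⁻¹) := by
        rw [← hgx]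
        calc g * u * g⁻¹ * (g * x * g⁻¹) = g * (u * x) * g⁻¹ := by group
          _ = g * (x * u) * g⁻¹ := by rw [hux]
          _ = g * x * g⁻¹ * (g * u * g⁻¹) := by group
      have h2 : g * u * g⁻¹ * x * z = x * (g * u * g⁻¹) * z := by
        calc g * u * g⁻¹ * x * z = g * u * g⁻¹ * (x * z) := by group
          _ = x * z * (g * u * g⁻¹) := h1
          _ = x * (z * (g * u * g⁻¹)) := by group
          _ = x * ((g * u * g⁻¹) * z) := by rw [hzcomm]
          _ = x * (g * u * g⁻¹) * z := by group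
      exact mul_right_cancel h2)
  have hcx : c * x = x * c := Subgroup.mem_centralizer_singleton_iff.1 hc
  have hwx : (c⁻¹ * g) * x * (c⁻¹ * g)⁻¹ = x * z := by
    calc (c⁻¹ * g) * x * (c⁻¹ * g)⁻¹ = c⁻¹ * (g * x * g⁻¹) * c := by group
      _ = c⁻¹ * (x * z) * c := by rw [hgx]
      _ = c⁻¹ * x * (z * c) := by group
      _ = c⁻¹ * x * (c * z) := by rw [hzcomm c]
      _ = c⁻¹ * (x * c) * z := by group
      _ = c⁻¹ * (c * x) * z := by rw [hcx]
      _ = x * z := by group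
  have hz1 : z = 1 := G1_core p P' hP' hcn hzc hzk hwx
  rw [hz1, mul_one] at hgx
  calc g * x = g * x * g⁻¹ * g := by group
    _ = x * g := by rw [hgx]

end Cfsg.Agent.Lib.Helper62.CHM
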