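import Cfsg.Agent.Lib.Helper62.CHM.Defs

set_option autoImplicit false

namespace Cfsg.Agent.Lib.Helper62.CHM

open scoped Classical

variable {G : Type*} [Group G] [Finite G]

/-- multiplication by a central element maps the class of `x` bijectively onto the class of `x * z` -/
theorem Z3_cs_mul (x z : G) (hz : z ∈ Subgroup.center G) : cs (x * z) = cs x := by
  unfold cs
  have hzc : ∀ g : G, g * z = z * g := fun g => Subgroup.mem_center_iff.1 hz g
  refine Nat.card_congr ⟨fun y => ⟨y.1 * z⁻¹, ?_⟩, fun y => ⟨y.1 * z, ?_⟩, ?_, ?_⟩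
  · have hy := y.2
    rw [ConjClasses.mem_carrier_iff_mk_eq, ConjClasses.mk_eq_mk_iff_isConj, isConj_iff] at hy ⊢
    obtain ⟨c, hc⟩ := hy
    refine ⟨c, ?_⟩
    have h1 : c * (y.1 * z⁻¹) * c⁻¹ = (c * y.1 * c⁻¹) * z⁻¹ := by
      have h2 : z⁻¹ * c⁻¹ = c⁻¹ * z⁻¹ := by
        rw [← mul_inv_rev, ← mul_inv_rev, hzc c]
      calc c * (y.1 * z⁻¹) * c⁻¹ = c * y.1 * (z⁻¹ * c⁻¹) := by group
        _ = c * y.1 * (c⁻¹ * z⁻¹) := by rw [h2]
        _ = (c * y.1 * c⁻¹) * z⁻¹ := by group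
    rw [h1, hc]
    group
  · have hy := y.2
    rw [ConjClasses.mem_carrier_iff_mk_eq, ConjClasses.mk_eq_mk_iff_isConj, isConj_iff] at hy ⊢
    obtain ⟨c, hc⟩ := hy
    refine ⟨c, ?_⟩
    have h1 : c * (y.1 * z) * c⁻¹ = (c * y.1 * c⁻¹) * z := by
      have h2 : z * c⁻¹ = c⁻¹ * z := (hzc c⁻¹).symm
      calc c * (y.1 * z) * c⁻¹ = c * y.1 * (z * c⁻¹) := by group
        _ = c * y.1 * (c⁻¹ * z) := by rw [h2]
        _ = (c * y.1 * c⁻¹) * z := by group
    rw [h1, hc]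
  · intro y
    ext
    simp
  · intro y
    ext
    simp

/-- [Z3] `A` is a union of cosets of the centre. -/
theorem mul_mem_A (p : ℕ) (x z : G) (hz : z ∈ Subgroup.center G) (hx : x ∈ A G p) : x * z ∈ A G p := by
  show ¬ p ∣ cs (x * z)
  rw [Z3_cs_mul x z hz]
  exact hx

end Cfsg.Agent.Lib.Helper62.CHM
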