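import Cfsg.Agent.Lib.Helper62.CHM.Defs
import Cfsg.Agent.Lib.Helper62.CHM.C4
import Cfsg.Agent.Lib.Helper62.CHM.Z3
import Cfsg.Agent.Lib.Helper62.CHM.G1

set_option autoImplicit false

namespace Cfsg.Agent.Lib.Helper62.CHM

open scoped Classical

variable {G : Type*} [Group G] [Finite G]

/-- conjugation action (through a homomorphism) on an invariant subset of a group -/
def G2_act {Q P : Type*} [Group Q] [Group P] (f : P →* Q) (T : Set Q)
    (hT : ∀ g : P, ∀ q ∈ T, f g * q * (f g)⁻¹ ∈ T) : MulAction P T where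
  smul g q := ⟨f g * q.1 * (f g)⁻¹, hT g q.1 q.2⟩
  one_smul q := Subtype.ext (by
    show f 1 * q.1 * (f 1)⁻¹ = q.1
    simp)
  mul_smul g h q := Subtype.ext (by
    show f (g * h) * q.1 * (f (g * h))⁻¹ = f g * (f h * q.1 * (f h)⁻¹) * (f g)⁻¹
    rw [map_mul]; group)

theorem G2_modEq {Q P : Type*} [Group Q] [Group P] [Finite Q] {p : ℕ} [Fact p.Prime]
    (hP : IsPGroup p P) (f : P →* Q) (T : Set Q) (hT : ∀ g : P, ∀ q ∈ T, f g * q * (f g)⁻¹ ∈ T) :
    Nat.card T ≡ Nat.card {q : Q // q ∈ T ∧ ∀ g : P, f g * q * (f g)⁻¹ = q} [MOD p] := by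
  letI := G2_act f T hT
  have h1 := hP.card_modEq_card_fixedPoints T
  have h2 : Nat.card (MulAction.fixedPoints P T) =
      Nat.card {q : Q // q ∈ T ∧ ∀ g : P, f g * q * (f g)⁻¹ = q} := by
    apply Nat.card_congr
    exact
      { toFun := fun x => ⟨x.1.1, x.1.2, fun g => congrArg Subtype.val (x.2 g)⟩
        invFun := fun y => ⟨⟨y.1, y.2.1⟩, fun g => Subtype.ext (y.2.2 g)⟩
        left_inv := fun x => rfl
        right_inv := fun y => rfl }
  rw [h2] at h1
  exact h1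

omit [Finite G] in
theorem G2_conj_mem_A (p : ℕ) (g x : G) (hx : x ∈ A G p) : g * x * g⁻¹ ∈ A G p := by
  have h1 : ConjClasses.mk (g * x * g⁻¹) = ConjClasses.mk x := by
    rw [ConjClasses.mk_eq_mk_iff_isConj]
    exact (isConj_iff.2 ⟨g, rfl⟩).symm
  show ¬ p ∣ cs (g * x * g⁻¹)
  unfold cs
  rw [h1]
  exact hx

theorem card_A_modEq (p : ℕ) [Fact p.Prime] (P : Sylow p G) (Z : Subgroup G) (hZ : Z ≤ Subgroup.center G)
    (hp : IsPGroup p Z) :
    Nat.card (A G p) ≡ Nat.card (Subgroup.centralizer (P : Set G)) [MOD p * Nat.card Z] := by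
  haveI hZn : Z.Normal := ⟨fun z hz g => by
    rw [Subgroup.mem_center_iff.1 (hZ hz) g, mul_inv_cancel_right]; exact hz⟩
  have hCA : ∀ c ∈ Subgroup.centralizer (P : Set G), c ∈ A G p := by
    intro c hc
    rw [mem_A_iff]
    refine ⟨P, fun y hy => ?_⟩
    rw [Subgroup.mem_centralizer_singleton_iff]
    exact Subgroup.mem_centralizer_iff.1 hc y hy
  have hA : (A G p) = QuotientGroup.mk ⁻¹' (QuotientGroup.mk '' (A G p) : Set (G ⧸ Z)) := by
    ext x
    constructor
    · intro hx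
      exact ⟨x, hx, rfl⟩
    · rintro ⟨a, ha, hax⟩
      have h1 : a⁻¹ * x ∈ Z := QuotientGroup.eq.1 hax
      have h2 := mul_mem_A p a (a⁻¹ * x) (hZ h1) ha
      rwa [mul_inv_cancel_left] at h2
  have hC : ((Subgroup.centralizer (P : Set G) : Subgroup G) : Set G) = QuotientGroup.mk ⁻¹'
      (QuotientGroup.mk '' ((Subgroup.centralizer (P : Set G) : Subgroup G) : Set G) : Set (G ⧸ Z)) := by
    ext x
    constructor
    · intro hx
      exact ⟨x, hx, rfl⟩
    · rintro ⟨a, ha, hax⟩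
      have h1 : a⁻¹ * x ∈ Z := QuotientGroup.eq.1 hax
      have h2 : a⁻¹ * x ∈ Subgroup.centralizer (P : Set G) :=
        Subgroup.center_le_centralizer _ (hZ h1)
      have h3 := Subgroup.mul_mem _ ha h2
      rwa [mul_inv_cancel_left] at h3
  have hcA : Nat.card (A G p) = Nat.card Z * Nat.card (QuotientGroup.mk '' (A G p) : Set (G ⧸ Z)) := by
    conv_lhs => rw [hA]
    exact QuotientGroup.card_preimage_mk Z _
  have hcC : Nat.card (Subgroup.centralizer (P : Set G)) = Nat.card Z * Nat.card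
      (QuotientGroup.mk '' ((Subgroup.centralizer (P : Set G) : Subgroup G) : Set G) : Set (G ⧸ Z)) := by
    rw [← QuotientGroup.card_preimage_mk Z _, ← hC]
    rfl
  have hmod := G2_modEq P.2 ((QuotientGroup.mk' Z).comp (P : Subgroup G).subtype)
    (QuotientGroup.mk '' (A G p) : Set (G ⧸ Z)) (by
      rintro g _ ⟨x, hx, rfl⟩
      exact ⟨(g : G) * x * (g : G)⁻¹, G2_conj_mem_A p _ _ hx, rfl⟩)
  have hfix : Nat.card {q : G ⧸ Z // q ∈ (QuotientGroup.mk '' (A G p) : Set (G ⧸ Z)) ∧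
      ∀ g : (P : Subgroup G), ((QuotientGroup.mk' Z).comp (P : Subgroup G).subtype) g * q *
        (((QuotientGroup.mk' Z).comp (P : Subgroup G).subtype) g)⁻¹ = q} = Nat.card
      (QuotientGroup.mk '' ((Subgroup.centralizer (P : Set G) : Subgroup G) : Set G) : Set (G ⧸ Z)) := by
    apply Nat.card_congr
    apply Equiv.subtypeEquivRight
    intro q
    constructor
    · rintro ⟨⟨x, hx, rfl⟩, h2⟩
      refine ⟨x, ?_, rfl⟩
      apply key p P Z hZ hp x hx
      intro g hg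
      have h3 : (QuotientGroup.mk ((g : G) * x * (g : G)⁻¹) : G ⧸ Z) = QuotientGroup.mk x := h2 ⟨g, hg⟩
      exact QuotientGroup.eq.1 h3.symm
    · rintro ⟨c, hc, rfl⟩
      refine ⟨⟨c, hCA c hc, rfl⟩, fun g => ?_⟩
      show (QuotientGroup.mk ((g : G) * c * (g : G)⁻¹) : G ⧸ Z) = QuotientGroup.mk c
      have h4 : (g : G) * c = c * g := Subgroup.mem_centralizer_iff.1 hc g g.2
      rw [h4, mul_inv_cancel_right]
  rw [hfix] at hmod
  rw [hcA, hcC, mul_comm p]
  exact hmod.mul_left' _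

end Cfsg.Agent.Lib.Helper62.CHM
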