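import Cfsg.Agent.Lib.Helper62.CHM.Defs

set_option autoImplicit false

namespace Cfsg.Agent.Lib.Helper62.CHM

open scoped Classical

variable {G : Type*} [Group G] [Finite G]

/-- [Z2] a central `p`-subgroup lies in `P ⊓ C_G(P)`. -/
theorem Z_le (p : ℕ) [Fact p.Prime] (P : Sylow p G) (Z : Subgroup G) (hZ : Z ≤ Subgroup.center G) (hp : IsPGroup p Z) :
    Z ≤ (P : Subgroup G) ⊓ Subgroup.centralizer (P : Set G) := by
  refine le_inf ?_ ?_
  · obtain ⟨Q, hQ⟩ := hp.exists_le_sylow
    obtain ⟨g, rfl⟩ := MulAction.exists_smul_eq G Q P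
    intro z hz
    rw [Sylow.coe_subgroup_smul, Subgroup.mem_pointwise_smul_iff_inv_smul_mem]
    have hzc := hZ hz
    have : (MulAut.conj g)⁻¹ • z = z := by
      rw [← map_inv]
      show MulAut.conj g⁻¹ z = z
      rw [MulAut.conj_apply, inv_inv]
      have := (Subgroup.mem_center_iff.1 hzc) g⁻¹
      rw [this]
      group
    rw [this]
    exact hQ hz
  · intro z hz
    rw [Subgroup.mem_centralizer_iff]
    intro h _
    exact (Subgroup.mem_center_iff.1 (hZ hz)) h

end Cfsg.Agent.Lib.Helper62.CHM
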