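import Cfsg.Agent.Lib.Helper62.CHM.Defs
import Cfsg.Agent.Lib.Helper62.CHM.G2
import Cfsg.Agent.Lib.Helper62.CHM.Z2

set_option autoImplicit false

namespace Cfsg.Agent.Lib.Helper62.CHM

open scoped Classical

variable {G : Type*} [Group G] [Finite G]

/-- [G4] arithmetic from G2, Z2: `|Z| ∣ |P ⊓ C| ∣ |C|`, both `p`-powers; if different then `p |Z| ∣ |C|`, so `p |Z| ∣ |A| = |Z| m`. -/
theorem card_inf_eq (p : ℕ) [Fact p.Prime] (P : Sylow p G) (Z : Subgroup G) (hZ : Z ≤ Subgroup.center G)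
    (hp : IsPGroup p Z) (m : ℕ) (hm : ¬ p ∣ m) (hA : Nat.card (A G p) = Nat.card Z * m) :
    Nat.card ((P : Subgroup G) ⊓ Subgroup.centralizer (P : Set G) : Subgroup G) = Nat.card Z := by
  have hpp : p.Prime := Fact.out
  have h1 := card_A_modEq p P Z hZ hp
  have h2 := Z_le p P Z hZ hp
  have hpg : IsPGroup p ((P : Subgroup G) ⊓ Subgroup.centralizer (P : Set G) : Subgroup G) :=
    P.2.to_le inf_le_left
  obtain ⟨b, hb⟩ := IsPGroup.iff_card.1 hpg
  obtain ⟨a, ha⟩ := IsPGroup.iff_card.1 hp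
  have h3 : Nat.card Z ∣ Nat.card ((P : Subgroup G) ⊓ Subgroup.centralizer (P : Set G) : Subgroup G) :=
    Subgroup.card_dvd_of_le h2
  have h4 : Nat.card ((P : Subgroup G) ⊓ Subgroup.centralizer (P : Set G) : Subgroup G) ∣
      Nat.card (Subgroup.centralizer (P : Set G)) := Subgroup.card_dvd_of_le inf_le_right
  rw [hb, ha] at h3
  have hab : a ≤ b := (Nat.pow_dvd_pow_iff_le_right hpp.one_lt).1 h3
  rw [hb, ha]
  rcases hab.eq_or_lt with h | h
  · rw [h]
  · exfalso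
    have h5 : p * Nat.card Z ∣ Nat.card (Subgroup.centralizer (P : Set G)) := by
      refine dvd_trans ?_ h4
      rw [hb, ha, ← pow_succ']
      exact pow_dvd_pow p h
    have h6 : p * Nat.card Z ∣ Nat.card (A G p) := (h1.dvd_iff dvd_rfl).2 h5
    rw [hA, mul_comm p] at h6
    exact hm (Nat.dvd_of_mul_dvd_mul_left Nat.card_pos h6)

end Cfsg.Agent.Lib.Helper62.CHM
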