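import Cfsg.Agent.Lib.Helper62.CHM.C4

set_option autoImplicit false

/-! Farm CHM piece G5. -/

namespace Cfsg.Agent.Lib.Helper62.CHM

open scoped Classical

variable {G : Type*} [Group G] [Finite G]

theorem G5_mem_smul (p : ℕ) (P : Sylow p G) (g h : G) :
    h ∈ ((g • P : Sylow p G) : Subgroup G) ↔ g⁻¹ * h * g ∈ (P : Subgroup G) := by
  rw [Sylow.coe_subgroup_smul, Subgroup.mem_pointwise_smul_iff_inv_smul_mem]
  simp [MulAut.smul_def]

theorem G5_card_centralizer (p : ℕ) (P : Sylow p G) (g : G) :
    Nat.card (Subgroup.centralizer ((g • P : Sylow p G) : Set G)) =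
      Nat.card (Subgroup.centralizer (P : Set G)) := by
  symm
  refine Nat.card_congr ((MulAut.conj g).toEquiv.subtypeEquiv ?_)
  intro x
  show x ∈ Subgroup.centralizer (P : Set G) ↔
    g * x * g⁻¹ ∈ Subgroup.centralizer ((g • P : Sylow p G) : Set G)
  rw [Subgroup.mem_centralizer_iff, Subgroup.mem_centralizer_iff]
  constructor
  · intro h y hy
    have hy' : g⁻¹ * y * g ∈ (P : Subgroup G) := (G5_mem_smul p P g y).mp hy
    have := h _ hy'
    calc y * (g * x * g⁻¹) = g * ((g⁻¹ * y * g) * x) * g⁻¹ := by group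
      _ = g * (x * (g⁻¹ * y * g)) * g⁻¹ := by rw [this]
      _ = g * x * g⁻¹ * y := by group
  · intro h y hy
    have hy' : g * y * g⁻¹ ∈ ((g • P : Sylow p G) : Subgroup G) := by
      rw [G5_mem_smul]
      have : g⁻¹ * (g * y * g⁻¹) * g = y := by group
      rw [this]; exact hy
    have := h _ hy'
    calc y * x = g⁻¹ * ((g * y * g⁻¹) * (g * x * g⁻¹)) * g := by group
      _ = g⁻¹ * ((g * x * g⁻¹) * (g * y * g⁻¹)) * g := by rw [this]
      _ = x * y := by group

theorem card_A_lt (p : ℕ) [Fact p.Prime] (P : Sylow p G) (hs : 1 < Nat.card (Sylow p G)) :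
    Nat.card (A G p) < Nat.card (Sylow p G) * Nat.card (Subgroup.centralizer (P : Set G)) := by
  have : Fintype G := Fintype.ofFinite G
  have : Fintype (Sylow p G) := Fintype.ofFinite _
  set c := Nat.card (Subgroup.centralizer (P : Set G)) with hc
  have hcard : ∀ P' : Sylow p G, Nat.card (Subgroup.centralizer (P' : Set G)) = c := by
    intro P'
    obtain ⟨g, rfl⟩ := MulAction.exists_smul_eq G P P'
    exact G5_card_centralizer p P g
  have hcpos : 0 < c := Nat.card_pos
  let T : Sylow p G → Finset G := fun P' =>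
    (Finset.univ.filter (fun x => x ∈ Subgroup.centralizer (P' : Set G))).erase 1
  have hT : ∀ P', (T P').card = c - 1 := by
    intro P'
    rw [Finset.card_erase_of_mem (by simp [Subgroup.one_mem]), ← hcard P', Nat.card_eq_fintype_card,
      Fintype.card_subtype]
  have hsub : (Finset.univ.filter (fun x => x ∈ A G p)) ⊆ insert 1 (Finset.univ.biUnion T) := by
    intro x hx
    rw [Finset.mem_filter] at hx
    obtain ⟨P', hP'⟩ := (mem_A_iff p x).mp hx.2
    by_cases hx1 : x = 1
    · simp [hx1]
    · rw [Finset.mem_insert]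
      right
      rw [Finset.mem_biUnion]
      refine ⟨P', Finset.mem_univ _, ?_⟩
      rw [Finset.mem_erase]
      refine ⟨hx1, ?_⟩
      rw [Finset.mem_filter]
      refine ⟨Finset.mem_univ _, ?_⟩
      rw [Subgroup.mem_centralizer_iff]
      intro h hh
      have := Subgroup.mem_centralizer_iff.mp (hP' hh) x (Set.mem_singleton x)
      exact this.symm
  have h1 : Nat.card (A G p) = (Finset.univ.filter (fun x => x ∈ A G p)).card := by
    rw [Nat.card_eq_fintype_card, ← Fintype.card_subtype]
  have h2 := Finset.card_le_card hsub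
  have h3 : (insert 1 (Finset.univ.biUnion T)).card ≤ (Finset.univ.biUnion T).card + 1 :=
    Finset.card_insert_le _ _
  have h4 : (Finset.univ.biUnion T).card ≤ Fintype.card (Sylow p G) * (c - 1) := by
    refine (Finset.card_biUnion_le).trans ?_
    simp [hT]
  rw [h1]
  rw [Nat.card_eq_fintype_card] at hs ⊢
  set s := Fintype.card (Sylow p G)
  have h5 : s * (c - 1) + s = s * c := by
    obtain ⟨c', hc'⟩ : ∃ c', c = c' + 1 := ⟨c - 1, by omega⟩
    rw [hc']
    simp only [Nat.add_sub_cancel]
    ring
  omega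

end Cfsg.Agent.Lib.Helper62.CHM
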