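import Cfsg.Agent.Lib.Helper62.CHM.Defs

set_option autoImplicit false

namespace Cfsg.Agent.Lib.Helper62.CHM

open scoped Classical

variable {G : Type*} [Group G] [Finite G]

/-- [L2] -/
theorem card_eq_relIndex_mul (P C : Subgroup G) :
    Nat.card C = P.relIndex C * Nat.card (P ⊓ C : Subgroup G) := by
  rw [← Subgroup.inf_relIndex_right P C]
  have h1 := Subgroup.card_mul_index ((P ⊓ C).subgroupOf C)
  have h2 : Nat.card ((P ⊓ C).subgroupOf C) = Nat.card (P ⊓ C : Subgroup G) :=
    Nat.card_congr (Subgroup.subgroupOfEquivOfLe inf_le_right).toEquiv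
  rw [h2] at h1
  rw [← h1, mul_comm]
  rfl

end Cfsg.Agent.Lib.Helper62.CHM
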