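import Cfsg.Agent.Lib.Helper62.CHM.Defs
import Cfsg.Agent.Lib.Helper62.CHM.L2

set_option autoImplicit false

namespace Cfsg.Agent.Lib.Helper62.CHM

open scoped Classical

variable {G : Type*} [Group G] [Finite G]

theorem G6_relIndex_mul_card {H K : Subgroup G} (h : H ≤ K) : H.relIndex K * Nat.card H = Nat.card K := by
  have h1 := Subgroup.relIndex_mul_relIndex ⊥ H K bot_le h
  simp only [Subgroup.relIndex_bot_left] at h1
  rw [mul_comm]
  exact h1

/-- [G6] `s |N| = |G|`, `|N| = P.relIndex N * |P|`, `|C| = P.relIndex C * |P ⊓ C|` (L2),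
`C ≤ N` so `P.relIndex C ≤ P.relIndex N`. -/
theorem card_mul_le (p : ℕ) [Fact p.Prime] (P : Sylow p G) :
    Nat.card (Sylow p G) * Nat.card (Subgroup.centralizer (P : Set G)) * Nat.card (P : Subgroup G) ≤
      Nat.card G * Nat.card ((P : Subgroup G) ⊓ Subgroup.centralizer (P : Set G) : Subgroup G) := by
  have h1 : Nat.card (Sylow p G) = (Subgroup.normalizer (P : Set G)).index := P.card_eq_index_normalizer
  have h2 : Nat.card (Subgroup.normalizer (P : Set G)) * (Subgroup.normalizer (P : Set G)).index = Nat.card G :=
    Subgroup.card_mul_index _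
  have h3 : (P : Subgroup G).relIndex (Subgroup.normalizer (P : Set G)) * Nat.card (P : Subgroup G) =
      Nat.card (Subgroup.normalizer (P : Set G)) := G6_relIndex_mul_card Subgroup.le_normalizer
  have h4 := card_eq_relIndex_mul (P : Subgroup G) (Subgroup.centralizer (P : Set G))
  have h5 : Subgroup.centralizer (P : Set G) ≤ Subgroup.normalizer (P : Set G) :=
    Subgroup.centralizer_le_normalizer _
  have h6 : (P : Subgroup G).relIndex (Subgroup.normalizer (P : Set G)) ≠ 0 := by
    intro h
    rw [h, zero_mul] at h3
    exact Nat.card_pos.ne' h3.symm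
  have h7 := Subgroup.relIndex_le_of_le_right (H := (P : Subgroup G)) h5 h6
  rw [h4, h1, ← h2, ← h3]
  calc (Subgroup.normalizer (P : Set G)).index *
        ((P : Subgroup G).relIndex (Subgroup.centralizer (P : Set G)) *
          Nat.card ((P : Subgroup G) ⊓ Subgroup.centralizer (P : Set G) : Subgroup G)) * Nat.card (P : Subgroup G)
      = (P : Subgroup G).relIndex (Subgroup.centralizer (P : Set G)) *
        ((Subgroup.normalizer (P : Set G)).index *
          Nat.card ((P : Subgroup G) ⊓ Subgroup.centralizer (P : Set G) : Subgroup G) * Nat.card (P : Subgroup G)) := by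
        ring
    _ ≤ (P : Subgroup G).relIndex (Subgroup.normalizer (P : Set G)) *
        ((Subgroup.normalizer (P : Set G)).index *
          Nat.card ((P : Subgroup G) ⊓ Subgroup.centralizer (P : Set G) : Subgroup G) * Nat.card (P : Subgroup G)) :=
        Nat.mul_le_mul_right _ h7
    _ = _ := by ring

end Cfsg.Agent.Lib.Helper62.CHM
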