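import Cfsg.Agent.Lib.Helper62.CHM.Defs

set_option autoImplicit false

namespace Cfsg.Agent.Lib.Helper62.CHM

open scoped Classical

/-- [H2] -/
theorem sylow_le_centralizer {H : Type*} [Group H] [Finite H] (p q : ℕ) [Fact p.Prime] [Fact q.Prime] (hpq : q ≠ p)
    (P : Sylow p H) (Q : Sylow q H) (hP : (P : Subgroup H).Normal) (hQ : (Q : Subgroup H).Normal) :
    (Q : Subgroup H) ≤ Subgroup.centralizer (P : Set H) := by
  intro x hx
  rw [Subgroup.mem_centralizer_iff]
  intro y hy
  have hd : Disjoint (P : Subgroup H) (Q : Subgroup H) :=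
    IsPGroup.disjoint_of_ne p q hpq.symm _ _ P.isPGroup' Q.isPGroup'
  exact (Subgroup.commute_of_normal_of_disjoint _ _ hP hQ hd y x hy hx)

end Cfsg.Agent.Lib.Helper62.CHM
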