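import Cfsg.Agent.Lib.Helper62.CHM.Defs

set_option autoImplicit false

namespace Cfsg.Agent.Lib.Helper62.CHM

open scoped Classical

variable {G : Type*} [Group G] [Finite G]

/-- [H3] -/
theorem eq_top_of_sylow_le (L : Subgroup G)
    (h : ∀ (q : ℕ) [Fact q.Prime], ∃ Q : Sylow q G, (Q : Subgroup G) ≤ L) : L = ⊤ := by
  rw [← Subgroup.index_eq_one, Nat.eq_one_iff_not_exists_prime_dvd]
  intro q hq hdvd
  haveI : Fact q.Prime := ⟨hq⟩
  obtain ⟨Q, hQ⟩ := h q
  exact Q.not_dvd_index (dvd_trans hdvd (Subgroup.index_dvd_of_le hQ))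

end Cfsg.Agent.Lib.Helper62.CHM
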