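import Cfsg.Agent.Lib.Helper62.CHM.Defs

set_option autoImplicit false

namespace Cfsg.Agent.Lib.Helper62.CHM

open scoped Classical

variable {G : Type*} [Group G] [Finite G]

theorem H4_relIndex_mul_card {H K : Subgroup G} (h : H ≤ K) : H.relIndex K * Nat.card H = Nat.card K := by
  have h1 := Subgroup.relIndex_mul_relIndex ⊥ H K bot_le h
  simp only [Subgroup.relIndex_bot_left] at h1
  rw [mul_comm]
  exact h1

/-- [H4] for `P` a normal Sylow `p`-subgroup and any subgroup `L`: `|P ⊓ L| = p ^ v_p |L|`. -/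
theorem card_inf_of_normal (p : ℕ) [Fact p.Prime] (P : Sylow p G) (hP : (P : Subgroup G).Normal) (L : Subgroup G) :
    Nat.card ((P : Subgroup G) ⊓ L : Subgroup G) = p ^ (Nat.card L).factorization p := by
  have hpp : p.Prime := Fact.out
  have hpg : IsPGroup p ((P : Subgroup G) ⊓ L : Subgroup G) := P.2.to_le inf_le_left
  obtain ⟨k, hk⟩ := IsPGroup.iff_card.1 hpg
  have h1 : ((P : Subgroup G) ⊓ L).relIndex L * Nat.card ((P : Subgroup G) ⊓ L : Subgroup G) = Nat.card L :=
    H4_relIndex_mul_card inf_le_right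
  rw [Subgroup.inf_relIndex_right] at h1
  have h2 : ¬ p ∣ (P : Subgroup G).relIndex L := fun h =>
    P.not_dvd_index (h.trans (Subgroup.relIndex_dvd_index_of_normal _ _))
  have h3 : (P : Subgroup G).relIndex L ≠ 0 := fun h => h2 (h ▸ dvd_zero p)
  rw [hk, ← h1, hk, Nat.factorization_mul h3 (pow_ne_zero _ hpp.ne_zero)]
  simp [Nat.factorization_eq_zero_of_not_dvd h2, hpp.factorization_pow]

end Cfsg.Agent.Lib.Helper62.CHM
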