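import Cfsg.Agent.Lib.Helper62.CHM.Defs

set_option autoImplicit false

namespace Cfsg.Agent.Lib.Helper62.CHM

open scoped Classical

variable {G : Type*} [Group G] [Finite G]

/-- [L1] -/
theorem sylow_card (p : ℕ) [Fact p.Prime] (P : Sylow p G) :
    Nat.card (P : Subgroup G) = p ^ (Nat.card G).factorization p ∧
      ¬ p ∣ Nat.card G / p ^ (Nat.card G).factorization p ∧
      Nat.card (P : Subgroup G) * (Nat.card G / p ^ (Nat.card G).factorization p) = Nat.card G := by
  have h1 : Nat.card (P : Subgroup G) = p ^ (Nat.card G).factorization p := P.card_eq_multiplicity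
  refine ⟨h1, ?_, ?_⟩
  · exact Nat.not_dvd_ordCompl (Fact.out : p.Prime) Nat.card_pos.ne'
  · rw [h1]
    exact Nat.ordProj_mul_ordCompl_eq_self _ _

end Cfsg.Agent.Lib.Helper62.CHM
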