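import Cfsg.Agent.Lib.Helper62.CHM.Defs
import Cfsg.Agent.Lib.Helper62.CHM.C4
import Cfsg.Agent.Lib.Helper62.CHM.H2
import Cfsg.Agent.Lib.Helper62.CHM.H3
import Cfsg.Agent.Lib.Helper62.CHM.H4
import Cfsg.Agent.Lib.Helper62.CHM.L1
import Cfsg.Agent.Lib.Helper62.CHM.L2

set_option autoImplicit false

namespace Cfsg.Agent.Lib.Helper62.CHM

open scoped Classical

variable {G : Type*} [Group G] [Finite G]

/-- [H5] nilpotent side. -/
theorem nilp_card_A {H : Type*} [Group H] [Finite H] (hH : Group.IsNilpotent H) (p : ℕ) [Fact p.Prime] :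
    Nat.card (A H p) = p ^ (Nat.card (Subgroup.center H)).factorization p *
      (Nat.card H / p ^ (Nat.card H).factorization p) := by
  have hnorm : ∀ (q : ℕ) (_ : Fact q.Prime) (Q : Sylow q H), (Q : Subgroup H).Normal :=
    (Group.isNilpotent_of_finite_tfae.out 0 3).1 hH
  obtain ⟨P⟩ : Nonempty (Sylow p H) := inferInstance
  have hPn : (P : Subgroup H).Normal := hnorm p inferInstance P
  -- (1) `A H p = C`
  have h1 : A H p = (Subgroup.centralizer (P : Set H) : Set H) := by
    ext x
    rw [mem_A_iff]
    constructor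
    · rintro ⟨P', hP'⟩
      have hPP : P' = P := by
        obtain ⟨g, hg⟩ := MulAction.exists_smul_eq H P P'
        rw [← hg, Sylow.smul_eq_of_normal]
      rw [hPP] at hP'
      rw [SetLike.mem_coe, Subgroup.mem_centralizer_iff]
      intro y hy
      have h9 := hP' hy
      exact ((Subgroup.mem_centralizer_iff.1 h9) x rfl).symm
    · intro hx
      refine ⟨P, fun y hy => ?_⟩
      rw [Subgroup.mem_centralizer_iff]
      rintro _ rfl
      exact ((Subgroup.mem_centralizer_iff.1 hx) y hy).symm
  -- (2) `P ⊔ C = ⊤`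
  have h2 : (P : Subgroup H) ⊔ Subgroup.centralizer (P : Set H) = ⊤ := by
    apply eq_top_of_sylow_le
    intro q _
    by_cases hq : q = p
    · subst hq
      exact ⟨P, le_sup_left⟩
    · obtain ⟨Q⟩ : Nonempty (Sylow q H) := inferInstance
      exact ⟨Q, (sylow_le_centralizer p q hq P Q hPn (hnorm q inferInstance Q)).trans le_sup_right⟩
  -- (3)
  have h3 : Nat.card (Subgroup.centralizer (P : Set H)) = (P : Subgroup H).index *
      Nat.card ((P : Subgroup H) ⊓ Subgroup.centralizer (P : Set H) : Subgroup H) := by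
    rw [card_eq_relIndex_mul (P : Subgroup H) (Subgroup.centralizer (P : Set H)),
      ← Subgroup.relIndex_sup_left, h2, Subgroup.relIndex_top_right]
  -- (4)
  have h4 : (P : Subgroup H) ⊓ Subgroup.centralizer (P : Set H) =
      (P : Subgroup H) ⊓ Subgroup.center H := by
    ext x
    constructor
    · rintro ⟨hxP, hxC⟩
      refine ⟨hxP, ?_⟩
      have h8 : (P : Subgroup H) ⊔ Subgroup.centralizer (P : Set H) ≤
          Subgroup.centralizer {x} := by
        apply sup_le
        · intro y hy
          rw [Subgroup.mem_centralizer_singleton_iff]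
          exact ((Subgroup.mem_centralizer_iff.1 hxC) y hy)
        · intro y hy
          rw [Subgroup.mem_centralizer_singleton_iff]
          exact ((Subgroup.mem_centralizer_iff.1 hy) x hxP).symm
      rw [h2] at h8
      show x ∈ Subgroup.center H
      rw [Subgroup.mem_center_iff]
      intro g
      have h9 := h8 (Subgroup.mem_top g)
      rw [Subgroup.mem_centralizer_singleton_iff] at h9
      exact h9
    · rintro ⟨hxP, hxZ⟩
      exact ⟨hxP, Subgroup.center_le_centralizer _ hxZ⟩
  -- (5)
  have h5 := card_inf_of_normal p P hPn (Subgroup.center H)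
  obtain ⟨l1, l2, l3⟩ := sylow_card p P
  have h6 : (P : Subgroup H).index = Nat.card H / p ^ (Nat.card H).factorization p := by
    have h7 := Subgroup.card_mul_index (P : Subgroup H)
    rw [l1] at h7
    exact (Nat.div_eq_of_eq_mul_right (pow_pos (Fact.out : p.Prime).pos _) h7.symm).symm
  rw [h1]
  change Nat.card (Subgroup.centralizer (P : Set H)) = _
  rw [h3, h4, h5, h6, mul_comm]

end Cfsg.Agent.Lib.Helper62.CHM
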