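import Cfsg.Agent.Lib.Helper62.CHM.Defs

set_option autoImplicit false

namespace Cfsg.Agent.Lib.Helper62.CHM

open scoped Classical

variable {G : Type*} [Group G] [Finite G]

/-- [Z1] the Sylow `p`-subgroup of the centre, as a subgroup of `G` (map of a `Sylow p (center G)`). -/
theorem exists_Z (p : ℕ) [Fact p.Prime] : ∃ Z : Subgroup G, Z ≤ Subgroup.center G ∧ IsPGroup p Z ∧
    Nat.card Z = p ^ (Nat.card (Subgroup.center G)).factorization p := by
  obtain S : Sylow p (Subgroup.center G) := default
  refine ⟨(S : Subgroup (Subgroup.center G)).map (Subgroup.center G).subtype, ?_, ?_, ?_⟩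
  · exact Subgroup.map_subtype_le _
  · exact S.isPGroup'.map _
  · rw [Subgroup.card_map_of_injective (Subgroup.subtype_injective _)]
    exact S.card_eq_multiplicity

end Cfsg.Agent.Lib.Helper62.CHM
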