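import Cfsg.Agent.Lib.Helper62.CHM.C1
import Cfsg.Agent.Lib.Helper62.CHM.C5
import Cfsg.Agent.Lib.Helper62.CHM.L1
import Cfsg.Agent.Lib.Helper62.CHM.H5
import Cfsg.Agent.Lib.Helper62.CHM.Z1
import Cfsg.Agent.Lib.Helper62.CHM.G4
import Cfsg.Agent.Lib.Helper62.CHM.G5
import Cfsg.Agent.Lib.Helper62.CHM.G6

set_option autoImplicit false

/-! Farm CHM (helper62) for S4139: assembly. -/

namespace Cfsg.Agent.Lib.Helper62.CHM

open scoped Classical

/-- [C2] the hypothesis transfers every count of elements by class size -/
theorem card_transfer {G H : Type*} [Group G] [Finite G] [Group H] [Finite H]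
    (h : ∀ k : ℕ, Nat.card {C : ConjClasses G // Nat.card C.carrier = k} =
      Nat.card {C : ConjClasses H // Nat.card C.carrier = k}) (φ : ℕ → Prop) :
    Nat.card {x : G // φ (cs x)} = Nat.card {x : H // φ (cs x)} := by
  rw [card_filter φ (max (Nat.card G) (Nat.card H)) (le_max_left _ _),
    card_filter φ (max (Nat.card G) (Nat.card H)) (le_max_right _ _)]
  simp only [h]

theorem main {G H : Type*} [Group G] [Finite G] [Group H] [Finite H]
    (hH : Group.IsNilpotent H)
    (h : ∀ k : ℕ, Nat.card {C : ConjClasses G // Nat.card C.carrier = k} =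
      Nat.card {C : ConjClasses H // Nat.card C.carrier = k}) :
    Group.IsNilpotent G := by
  have hn : Nat.card G = Nat.card H := by
    have h1 := card_transfer h (fun _ => True)
    rw [Nat.card_congr (Equiv.subtypeUnivEquiv (fun _ => trivial)),
      Nat.card_congr (Equiv.subtypeUnivEquiv (fun _ => trivial))] at h1
    exact h1
  have hz : Nat.card (Subgroup.center G) = Nat.card (Subgroup.center H) := by
    rw [card_center, card_center]
    exact card_transfer h (fun k => k = 1)
  have hA : ∀ p : ℕ, Nat.card (A G p) = Nat.card (A H p) := fun p =>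
    card_transfer h (fun k => ¬ p ∣ k)
  refine ((Group.isNilpotent_of_finite_tfae (G := G)).out 0 3).2 ?_
  intro p hp P
  have := hp
  by_contra hN
  have hs : 1 < Nat.card (Sylow p G) := by
    by_contra hs
    have h1 : Nat.card (Sylow p G) ≤ 1 := not_lt.mp hs
    have : Subsingleton (Sylow p G) := (Finite.card_le_one_iff_subsingleton).1 h1
    exact hN (Sylow.normal_of_subsingleton P)
  obtain ⟨Z, hZc, hZp, hZcard⟩ := exists_Z (G := G) p
  obtain ⟨hP1, hP2, hP3⟩ := sylow_card p P
  have hAcard : Nat.card (A G p) = Nat.card Z * (Nat.card G / p ^ (Nat.card G).factorization p) := by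
    rw [hA, nilp_card_A hH p, hZcard, hz, hn]
  have h1 := card_inf_eq p P Z hZc hZp _ hP2 hAcard
  have h2 := card_A_lt p P hs
  have h3 := card_mul_le p P
  rw [h1] at h3
  have h4 : Nat.card (A G p) * Nat.card (P : Subgroup G) < Nat.card G * Nat.card Z :=
    lt_of_lt_of_le (Nat.mul_lt_mul_of_pos_right h2 Nat.card_pos) h3
  have h5 : Nat.card (A G p) * Nat.card (P : Subgroup G) = Nat.card G * Nat.card Z := by
    rw [hAcard]
    calc Nat.card Z * (Nat.card G / p ^ (Nat.card G).factorization p) * Nat.card (P : Subgroup G)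
        = (Nat.card (P : Subgroup G) * (Nat.card G / p ^ (Nat.card G).factorization p)) * Nat.card Z := by ring
      _ = Nat.card G * Nat.card Z := by rw [hP3]
  exact absurd h4 (by rw [h5]; exact lt_irrefl _)

end Cfsg.Agent.Lib.Helper62.CHM
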